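import Mathlib

/-!
# A group of order 8 with a non-centralizing automorphism of order 3

Package PK-8 of the S3685 project (Wong's theorem): a subgroup `K` of order `8` normalized but not
centralized by an element `ρ` with `ρ ^ 3 = 1` either has exponent `2` or has a unique involution.
-/

set_option autoImplicit false

namespace Cfsg.Agent.Lib.Helper22.Sub3

theorem exp_two_or_unique_invol {H : Type*} [Group H] (K : Subgroup H) [Finite K]
    (hK : Nat.card K = 8) (ρ : H) (hρ : ρ ^ 3 = 1) (hnorm : ∀ x ∈ K, ρ * x * ρ⁻¹ ∈ K)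
    (hcent : ∃ x ∈ K, ρ * x ≠ x * ρ) :
    (∀ x ∈ K, x * x = 1) ∨ ∃ c ∈ K, c ≠ 1 ∧ ∀ x ∈ K, x * x = 1 → x = 1 ∨ x = c := by
  classical
  haveI : Fintype K := Fintype.ofFinite K
  haveI h3 : Fact (Nat.Prime 3) := ⟨by norm_num⟩
  haveI h2 : Fact (Nat.Prime 2) := ⟨by norm_num⟩
  have hKc : Fintype.card K = 8 := by rw [← Nat.card_eq_fintype_card]; exact hK
  -- conjugation by ρ on K
  let f : K → K := fun x => ⟨ρ * x * ρ⁻¹, hnorm x x.2⟩
  have hfval : ∀ x : K, ((f x : K) : H) = ρ * x * ρ⁻¹ := fun x => rfl
  have hfmul : ∀ x y : K, f (x * y) = f x * f y := by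
    intro x y
    apply Subtype.ext
    rw [Subgroup.coe_mul, hfval, hfval, hfval, Subgroup.coe_mul]
    group
  have hf1 : f 1 = 1 := by
    apply Subtype.ext
    rw [hfval, Subgroup.coe_one]
    group
  have hfinv : ∀ x : K, f x⁻¹ = (f x)⁻¹ := by
    intro x
    apply eq_inv_of_mul_eq_one_left
    rw [← hfmul, inv_mul_cancel, hf1]
  have hf3 : ∀ x : K, f (f (f x)) = x := by
    intro x
    apply Subtype.ext
    rw [hfval, hfval, hfval]
    have e : ρ * (ρ * (ρ * (x : H) * ρ⁻¹) * ρ⁻¹) * ρ⁻¹ = ρ ^ 3 * x * (ρ ^ 3)⁻¹ := by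
      simp only [pow_succ, pow_zero, one_mul, mul_inv_rev, mul_assoc]
    rw [e, hρ, inv_one, one_mul, mul_one]
  -- the subgroup of fixed points
  let C : Subgroup K :=
    { carrier := {x | f x = x}
      mul_mem' := by
        intro x y hx hy
        show f (x * y) = x * y
        rw [hfmul, show f x = x from hx, show f y = y from hy]
      one_mem' := hf1
      inv_mem' := by
        intro x hx
        show f x⁻¹ = x⁻¹
        rw [hfinv, show f x = x from hx] }
  have hCmem : ∀ x : K, x ∈ C ↔ f x = x := fun x => Iff.rfl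
  let F : Function.End K := f
  have hF3 : F ^ 3 ^ 1 = 1 := by
    funext x
    have e : F ^ 3 ^ 1 = F * F * F := by rw [pow_one, pow_succ, pow_two]
    rw [e]
    exact hf3 x
  have hmod3 := Equiv.Perm.card_fixedPoints_modEq (p := 3) (n := 1) hF3
  have hCcard : Fintype.card (Function.fixedPoints F) = Nat.card C := by
    rw [← Nat.card_eq_fintype_card]
    rfl
  rw [hKc, hCcard] at hmod3
  have hCdvd : Nat.card C ∣ 8 := by
    have := Subgroup.card_subgroup_dvd_card C
    rwa [hK] at this
  have hCle : Nat.card C ≤ 8 := Nat.le_of_dvd (by norm_num) hCdvd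
  have hC2 : Nat.card C = 2 := by
    have hne8 : Nat.card C ≠ 8 := by
      intro h8
      have htop : C = ⊤ := Subgroup.eq_top_of_card_eq C (by rw [h8, hK])
      obtain ⟨x, hx, hxne⟩ := hcent
      apply hxne
      have hxC : (⟨x, hx⟩ : K) ∈ C := by rw [htop]; trivial
      have h1 : f ⟨x, hx⟩ = ⟨x, hx⟩ := hxC
      have h2' : ρ * x * ρ⁻¹ = x := congrArg Subtype.val h1
      calc ρ * x = ρ * x * ρ⁻¹ * ρ := by group
        _ = x * ρ := by rw [h2']
    have hm : 8 % 3 = Nat.card C % 3 := hmod3
    interval_cases hc : Nat.card C <;> simp_all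
  -- the nonidentity fixed point
  obtain ⟨c, hc1, hcuniq⟩ := (Nat.card_eq_two_iff' (1 : C)).mp hC2
  have hCall : ∀ x : K, f x = x → x = 1 ∨ x = (c : K) := by
    intro x hx
    by_cases hx1 : x = 1
    · exact Or.inl hx1
    · right
      have hxC : x ∈ C := hx
      have := hcuniq ⟨x, hxC⟩ (fun h => hx1 (congrArg Subtype.val h))
      exact congrArg Subtype.val this
  have hcfix : f (c : K) = (c : K) := c.2
  have hcne : (c : K) ≠ 1 := fun h => hc1 (Subtype.ext h)
  have hcc : (c : K) * (c : K) = 1 := by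
    have hfix : f ((c : K) * (c : K)) = (c : K) * (c : K) := by rw [hfmul, hcfix]
    rcases hCall _ hfix with h | h
    · exact h
    · exfalso
      apply hcne
      have : (c : K) * (c : K) = (c : K) * 1 := by rw [mul_one]; exact h
      exact mul_left_cancel this
  -- inversion on K
  let g : Function.End K := fun x => x⁻¹
  have hg2 : g ^ 2 ^ 1 = 1 := by
    funext x
    have e : g ^ 2 ^ 1 = g * g := by rw [pow_one, pow_two]
    rw [e]
    exact inv_inv x
  have hmod2 := Equiv.Perm.card_fixedPoints_modEq (p := 2) (n := 1) hg2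
  rw [hKc] at hmod2
  have hJmem : ∀ x : K, x ∈ Function.fixedPoints g ↔ x * x = 1 := by
    intro x
    show x⁻¹ = x ↔ x * x = 1
    rw [inv_eq_iff_mul_eq_one]
  -- conjugation restricted to the involutions-or-one
  let fJ : Function.End (Function.fixedPoints g) := fun x =>
    ⟨f x.1, by
      have hx : (x.1)⁻¹ = x.1 := x.2
      show (f x.1)⁻¹ = f x.1
      rw [← hfinv, hx]⟩
  have hfJ3 : fJ ^ 3 ^ 1 = 1 := by
    funext x
    have e : fJ ^ 3 ^ 1 = fJ * fJ * fJ := by rw [pow_one, pow_succ, pow_two]
    rw [e]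
    apply Subtype.ext
    exact hf3 x.1
  have hmod3J := Equiv.Perm.card_fixedPoints_modEq (p := 3) (n := 1) hfJ3
  have hone : (1 : K) ∈ Function.fixedPoints g := (hJmem 1).mpr (one_mul 1)
  have hcJ : (c : K) ∈ Function.fixedPoints g := (hJmem _).mpr hcc
  have hfix2 : Fintype.card (Function.fixedPoints fJ) = 2 := by
    rw [← Nat.card_eq_fintype_card, Nat.card_eq_two_iff]
    refine ⟨⟨⟨1, hone⟩, ?_⟩, ⟨⟨(c : K), hcJ⟩, ?_⟩, ?_, ?_⟩
    · show fJ ⟨1, hone⟩ = ⟨1, hone⟩
      apply Subtype.ext
      exact hf1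
    · show fJ ⟨(c : K), hcJ⟩ = ⟨(c : K), hcJ⟩
      apply Subtype.ext
      exact hcfix
    · intro h
      apply hcne
      have h' := congrArg (fun y : Function.fixedPoints fJ => ((y : Function.fixedPoints g) : K)) h
      exact h'.symm
    · apply Set.eq_univ_of_forall
      intro y
      have hy : fJ y.1 = y.1 := y.2
      have hy' : f y.1.1 = y.1.1 := congrArg Subtype.val hy
      rcases hCall _ hy' with h | h
      · left
        apply Subtype.ext
        apply Subtype.ext
        exact h
      · right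
        show y = _
        apply Subtype.ext
        apply Subtype.ext
        exact h
  rw [hfix2] at hmod3J
  have hJle : Fintype.card (Function.fixedPoints g) ≤ 8 := by
    rw [← hKc]
    exact Fintype.card_subtype_le _
  have hJ : Fintype.card (Function.fixedPoints g) = 8 ∨ Fintype.card (Function.fixedPoints g) = 2 := by
    have hm2 : 8 % 2 = Fintype.card (Function.fixedPoints g) % 2 := hmod2
    have hm3 : Fintype.card (Function.fixedPoints g) % 3 = 2 % 3 := hmod3J
    omega
  rcases hJ with hJ8 | hJ2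
  · left
    intro x hx
    by_contra hxx
    have hlt : Fintype.card (Function.fixedPoints g) < Fintype.card K := by
      apply Fintype.card_subtype_lt (x := ⟨x, hx⟩)
      intro hmem
      apply hxx
      have := (hJmem ⟨x, hx⟩).mp hmem
      exact congrArg Subtype.val this
    omega
  · right
    refine ⟨(c : K), (c : K).2, fun h => hcne (Subtype.ext h), ?_⟩
    intro x hx hxx
    by_contra hcon
    push Not at hcon
    have hxJ : (⟨x, hx⟩ : K) ∈ Function.fixedPoints g := (hJmem _).mpr (Subtype.ext hxx)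
    have h3' : 2 < Fintype.card (Function.fixedPoints g) := by
      rw [Fintype.two_lt_card_iff]
      refine ⟨⟨1, hone⟩, ⟨(c : K), hcJ⟩, ⟨⟨x, hx⟩, hxJ⟩, ?_, ?_, ?_⟩
      · intro h
        exact hcne (congrArg Subtype.val h).symm
      · intro h
        apply hcon.1
        have := congrArg (fun y : Function.fixedPoints g => ((y : K) : H)) h
        exact this.symm
      · intro h
        apply hcon.2
        have := congrArg (fun y : Function.fixedPoints g => ((y : K) : H)) h
        exact this.symm
    omega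

end Cfsg.Agent.Lib.Helper22.Sub3
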